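import Cfsg.Agent.GZ.G1

/-! The principal block: orthogonality and restriction to `P` and `Ω₁(Z(P))`. -/

set_option autoImplicit false
set_option linter.unusedSectionVars false

namespace Cfsg.Agent.GZ

open Subgroup Cfsg.Agent.FT Cfsg.Agent.L0 Cfsg.Agent.H8
open Cfsg.Agent.H7 (opp)
open scoped commutatorElement ComplexConjugate Classical

variable {G : Type*} [Group G] [Fintype G] {p : ℕ} [hp : Fact p.Prime] {P X : Subgroup G} {g n u v x y z : G}
  {ι : Type*} [Fintype ι] {r : ι → G} {χ : IrrCharacter G}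

/-- a transversal of `P C(P)` in `N(P)` -/
structure Tr (P : Subgroup G) (r : ι → G) : Prop where
  mem : ∀ i, r i ∈ 𝐍(P)
  inj : ∀ i j, (r i)⁻¹ * r j ∈ P ⊔ 𝐂(P) → i = j
  cover : ∀ n ∈ 𝐍(P), ∃ i, ∃ a ∈ P, ∃ c ∈ 𝐂(P), n = r i * a * c

theorem exists_tr (P : Subgroup G) :
    Tr P (fun i : 𝐍(P) ⧸ (P ⊔ 𝐂(P)).subgroupOf 𝐍(P) => (i.out : G)) := by
  refine ⟨fun i => i.out.2, fun i j h => ?_, fun n hn => ?_⟩
  · rw [← i.out_eq, ← j.out_eq]; exact QuotientGroup.eq.mpr h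
  · obtain ⟨⟨s, hs⟩, e⟩ := QuotientGroup.mk_out_eq_mul ((P ⊔ 𝐂(P)).subgroupOf 𝐍(P)) ⟨n, hn⟩
    obtain ⟨a, ha, c, hc, e'⟩ := (mem_sup_of_le_normalizer' (le_normalizer.trans
      (H8.normalizer_le_normalizer_centralizer _))).mp (inv_mem (mem_subgroupOf.mp hs))
    exact ⟨_, a, ha, c, hc, by rw [e, mul_assoc, e']; simp⟩

theorem pp_self (h : ∃ k, u ^ p ^ k = 1) : IsPPart p u u := by
  obtain ⟨k, hk⟩ := h
  obtain ⟨j, -, hj⟩ := (Nat.dvd_prime_pow hp.out).mp (orderOf_dvd_of_pow_eq_one hk)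
  exact isPPart_self hp.out hj

theorem cf (χ : IrrCharacter G) (h : IsConj u v) : χ.1 u = χ.1 v :=
  IsClassFunction.eq_of_isConj (IsIrrCharacter.isClassFunction χ.2) h

/-- the norm of a column -/
noncomputable def cR (p : ℕ) (u : G) : ℝ := ∑ χ ∈ prinBlk p G, ‖χ.1 u‖ ^ 2

theorem card_same {α β : Type*} [Fintype α] (φ : α → β) (T : Finset β) (h : ∀ a, φ a ∈ T) :
    (Fintype.card α : ℝ) ^ 2 ≤ T.card * ∑ a, ∑ b, if φ a = φ b then (1 : ℝ) else 0 := by
  have e1 : (Fintype.card α : ℝ) = ∑ t ∈ T, ∑ a, if φ a = t then (1 : ℝ) else 0 := by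
    rw [Finset.sum_comm]; simp [h]
  have e2 : ∑ a, ∑ b, (if φ a = φ b then (1 : ℝ) else 0) = ∑ t ∈ T, (∑ a, if φ a = t then (1 : ℝ) else 0) ^ 2 := by
    simp only [pow_two, Finset.sum_mul_sum]
    rw [Finset.sum_comm (s := T)]
    refine Finset.sum_congr rfl fun a _ => ?_
    rw [Finset.sum_comm (s := T)]
    refine Finset.sum_congr rfl fun b _ => ?_
    simp [h, eq_comm]
  rw [e1, e2]
  exact sq_sum_le_card_mul_sum_sq

namespace Hy

variable (h : Hy p P)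
include h

theorem sec (hχ : χ ∈ prinBlk p G) (hu : IsPPart p g u) (h1 : u ≠ 1) : χ.1 g = χ.1 u := by
  obtain ⟨w, rfl, c, ⟨k, hk⟩, hw⟩ := hu
  have h2 : ∃ k, u ^ p ^ k = 1 := ⟨k, hk ▸ pow_orderOf_eq_one u⟩
  rw [c.eq]
  exact prinBlk_apply_mul_core hp.out (pp_self h2)
    (np_mem (h.np h1 h2) (mem_centralizer_singleton_iff.mpr c.eq.symm) hw) hχ

theorem cR_eq (hu : u ∈ P) (h1 : u ≠ 1) : cR p u = #|(P ⊓ 𝐂[u] : Subgroup G)| := by
  have h2 := pw_of_mem h.syl.pgroup hu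
  have np := h.np h1 h2
  have hR := h.ext hu
  have e1 : Nat.card (𝐂[u] ⧸ pPrimeCore p 𝐂[u]) = #|(P ⊓ 𝐂[u] : Subgroup G)| := by
    have e2 := H8.card_sup_mul_card_inf (hR.le.trans (H7.le_normalizer_opp (p := p) _))
    rw [le_antisymm (sup_le (H7.opp_le _) hR.le) (np_dec np hR), disjoint_of_coprime_card
      (coprime_of_pgroup hR.pgroup (H7.not_dvd_card_opp _)).symm, card_bot, mul_one,
      card_map_of_injective (subtype_injective _), card_eq_card_quotient_mul_card_subgroup (pPrimeCore p 𝐂[u]),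
      mul_comm] at e2
    exact Nat.eq_of_mul_eq_mul_left Nat.card_pos e2
  obtain ⟨k, hk⟩ := hR.pgroup.exists_card_eq
  have hu' : u ∈ 𝐂[u] := mem_centralizer_singleton_iff.mpr rfl
  have := sum_prinBlk_section_mul_conj hp.out rfl (pPrimeCore p 𝐂[u]) not_dvd_card_pPrimeCore ⊤
    (IsPGroup.of_card (by rw [card_top, e1, hk])) le_top (g := ⟨u, hu'⟩) (h := ⟨u, hu'⟩) (pp_self h2) (pp_self h2)
  have e3 : 𝐂[((⟨u, hu'⟩ : 𝐂[u]) : 𝐂[u] ⧸ pPrimeCore p 𝐂[u])] = ⊤ :=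
    eq_top_iff.mpr fun a _ => mem_centralizer_singleton_iff.mpr (by
      obtain ⟨a, rfl⟩ := QuotientGroup.mk_surjective a
      rw [← QuotientGroup.mk_mul, ← QuotientGroup.mk_mul]
      exact congrArg _ (Subtype.ext (mem_centralizer_singleton_iff.mp a.2)))
  rw [if_pos (IsConj.refl _), e3, card_top, e1] at this
  simp only [Complex.mul_conj, Complex.normSq_eq_norm_sq] at this
  unfold cR
  exact_mod_cast this

theorem cR_Z (hz : z ∈ Zp p P) (h1 : z ≠ 1) : cR p z = #|P| := by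
  rw [h.cR_eq hz.1.1 h1, inf_eq_left.mpr (le_centralizer_singleton_iff.mpr hz.1.2)]

theorem orth (hu : u ∈ P) (hv : v ∈ P) :
    ∑ χ ∈ prinBlk p G, χ.1 u * conj (χ.1 v) = if IsConj u v then (cR p u : ℂ) else 0 := by
  split_ifs with c
  · simp only [cR, ← fun χ : IrrCharacter G => cf χ c, Complex.mul_conj,
      Complex.normSq_eq_norm_sq]
    push_cast; rfl
  · exact sum_prinBlk_mul_conj_eq_zero hp.out (pp_self (pw_of_mem h.syl.pgroup hu))
      (pp_self (pw_of_mem h.syl.pgroup hv)) c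

theorem gram {α : Type*} (s : Finset α) (t : α → G) (a : α → ℂ) (ht : ∀ i ∈ s, t i ∈ P) :
    ((∑ χ ∈ prinBlk p G, ‖∑ i ∈ s, a i * χ.1 (t i)‖ ^ 2 : ℝ) : ℂ) =
      ∑ i ∈ s, ∑ j ∈ s, a i * conj (a j) * if IsConj (t i) (t j) then (cR p (t i) : ℂ) else 0 := by
  push_cast
  simp only [← Complex.mul_conj', map_sum, Finset.sum_mul_sum]
  rw [Finset.sum_comm]
  refine Finset.sum_congr rfl fun i hi => ?_
  rw [Finset.sum_comm]
  refine Finset.sum_congr rfl fun j hj => ?_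
  rw [← h.orth (ht i hi) (ht j hj), Finset.mul_sum]
  exact Finset.sum_congr rfl fun χ _ => by rw [map_mul]; ring

theorem cls_P (t : Tr P r) (u : P) (h1 : u ≠ 1) :
    cR p (u : G) * (Finset.univ.filter fun v : P => IsConj (u : G) v).card ≤ Fintype.card ι * #|P| := by
  have e1 : (Finset.univ.filter fun v : P => IsConj (u : G) v).card ≤
      Fintype.card ι * (Finset.univ.filter (IsConj u)).card := by
    rw [← Finset.card_univ, ← Finset.card_product]
    refine Finset.card_le_card_of_surjOn (fun q : ι × P => (⟨r q.1 * q.2 * (r q.1)⁻¹,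
      conj_mem_of_le_normalizer le_rfl (t.mem _) q.2.2⟩ : P)) fun v hv => ?_
    obtain ⟨g, hg⟩ := isConj_iff.mp (Finset.mem_filter.mp hv).2
    obtain ⟨n, hn, e⟩ := h.fus u u.2 g (hg ▸ v.2)
    obtain ⟨i, a, ha, c, hc, rfl⟩ := t.cover n hn
    refine ⟨(i, ⟨a, ha⟩ * u * ⟨a, ha⟩⁻¹), Finset.mem_coe.mpr (Finset.mem_product.mpr ⟨Finset.mem_univ _,
      Finset.mem_filter.mpr ⟨Finset.mem_univ _, isConj_iff.mpr ⟨_, rfl⟩⟩⟩), Subtype.ext ?_⟩
    change r i * (a * u * a⁻¹) * (r i)⁻¹ = v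
    rw [← hg, ← e, mul_assoc _ c, ← mem_centralizer_iff.mp hc u u.2]; group
  have e2 : #|(P ⊓ 𝐂[(u : G)] : Subgroup G)| = #|𝐂[u]| := by
    rw [← card_map_of_injective (K := 𝐂[u]) P.subtype_injective]
    congr 2
    ext g
    exact ⟨fun hg => ⟨⟨g, hg.1⟩, mem_centralizer_singleton_iff.mpr
      (Subtype.ext (mem_centralizer_singleton_iff.mp hg.2)), rfl⟩, by
        rintro ⟨g, hg, rfl⟩
        exact ⟨g.2, mem_centralizer_singleton_iff.mpr (congrArg Subtype.val (mem_centralizer_singleton_iff.mp hg))⟩⟩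
  rw [h.cR_eq u.2 (by simpa using h1), e2, ← (𝐂[u]).card_mul_index, ← card_filter_isConj]
  have : #|𝐂[u]| * (Finset.univ.filter fun v : P => IsConj (u : G) v).card ≤
      Fintype.card ι * (#|𝐂[u]| * (Finset.univ.filter (IsConj u)).card) := by
    rw [mul_left_comm]; exact Nat.mul_le_mul_left _ e1
  exact_mod_cast this

theorem bessel (t : Tr P r) (hχ : χ ∈ prinBlk p G) :
    ∑ u ∈ (Finset.univ : Finset P).erase 1, ‖χ.1 u‖ ^ 2 ≤ Fintype.card ι * #|P| := by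
  set s := (Finset.univ : Finset P).erase 1
  set S := ∑ u ∈ s, ‖χ.1 u‖ ^ 2
  have e := h.gram s (fun u => (u : G)) (fun u => conj (χ.1 u)) fun u _ => u.2
  have e1 : ∀ u ∈ s, ∑ v ∈ s, conj (χ.1 u) * conj (conj (χ.1 v)) * (if IsConj (u : G) v then (cR p (u : G) : ℂ) else 0) =
      ((‖χ.1 u‖ ^ 2 * (cR p (u : G) * (s.filter fun v : P => IsConj (u : G) v).card) : ℝ) : ℂ) := fun u _ => by
    simp only [mul_ite, mul_zero, ← Finset.sum_filter]
    rw [Finset.sum_congr rfl fun v hv => by rw [← cf χ (Finset.mem_filter.mp hv).2]]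
    rw [Finset.sum_const, Complex.conj_conj, Complex.conj_mul']
    push_cast; ring
  rw [Finset.sum_congr rfl e1, ← Complex.ofReal_sum, Complex.ofReal_inj] at e
  have h1 : S ^ 2 ≤ S * (Fintype.card ι * #|P|) := by
    calc S ^ 2 = ‖∑ u ∈ s, conj (χ.1 u) * χ.1 u‖ ^ 2 := by
          simp only [Complex.conj_mul', ← Complex.ofReal_pow, ← Complex.ofReal_sum, Complex.norm_real,
            Real.norm_eq_abs, sq_abs, S]
      _ ≤ _ := Finset.single_le_sum (f := fun ψ : IrrCharacter G => ‖∑ u ∈ s, conj (χ.1 u) * ψ.1 u‖ ^ 2)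
          (fun _ _ => by positivity) hχ
      _ = _ := e
      _ ≤ _ := by
          rw [Finset.sum_mul]
          refine Finset.sum_le_sum fun u hu => mul_le_mul_of_nonneg_left (le_trans (mul_le_mul_of_nonneg_left ?_
            (Finset.sum_nonneg fun _ _ => by positivity)) (h.cls_P t u (Finset.ne_of_mem_erase hu))) (by positivity)
          exact_mod_cast Finset.card_le_card (Finset.filter_subset_filter _ (Finset.subset_univ _))
  have h0 : 0 ≤ S := Finset.sum_nonneg fun _ _ => by positivity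
  by_contra hc
  push Not at hc
  have : (0 : ℝ) ≤ Fintype.card ι * #|P| := by positivity
  nlinarith

theorem tr_inj (t : Tr P r) (hz : z ∈ Zp p P) (h1 : z ≠ 1) {i j : ι} (e : (r i)⁻¹ * r j * z = z * ((r i)⁻¹ * r j)) :
    i = j := t.inj i j (h.mem_N0 hz.1 h1 (mul_mem (inv_mem (t.mem i)) (t.mem j)) e)

theorem cls_Z (t : Tr P r) (hz : z ∈ Zp p P) (h1 : z ≠ 1) :
    (((Finset.univ : Finset (Zp p P)).erase 1).filter fun v : Zp p P => IsConj z v).card = Fintype.card ι := by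
  rw [← Finset.card_univ]
  refine (Finset.card_bij (fun i _ => (⟨r i * z * (r i)⁻¹, Zp_conj (t.mem i) hz⟩ : Zp p P)) (fun i _ => ?_)
    (fun i _ j _ e => h.tr_inj t hz h1 ?_) fun v hv => ?_).symm
  · exact Finset.mem_filter.mpr ⟨by simpa [Subtype.ext_iff, mul_inv_eq_iff_eq_mul] using h1, isConj_iff.mpr ⟨_, rfl⟩⟩
  · have e' : r i * z * (r i)⁻¹ = r j * z * (r j)⁻¹ := congrArg Subtype.val e
    calc _ = (r i)⁻¹ * (r j * z * (r j)⁻¹) * r j := by group
      _ = _ := by rw [← e']; group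
  · obtain ⟨g, hg⟩ := isConj_iff.mp (Finset.mem_filter.mp hv).2
    obtain ⟨n, hn, e⟩ := h.fus z hz.1.1 g (hg ▸ v.2.1.1)
    obtain ⟨i, a, ha, c, hc, rfl⟩ := t.cover n hn
    refine ⟨i, Finset.mem_univ _, Subtype.ext ?_⟩
    change r i * z * (r i)⁻¹ = v
    rw [← hg, ← e, mul_assoc _ c, ← mem_centralizer_iff.mp hc z hz.1.1, ← mul_assoc, mul_assoc _ a,
      mem_centralizer_iff.mp hz.1.2 a ha]; group

end Hy

end Cfsg.Agent.GZ
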