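import Cfsg.Agent.GZ.G2

/-! Restriction of the characters of the principal block to `P` and `Ω₁(Z(P))`. -/

set_option autoImplicit false
set_option linter.unusedSectionVars false

namespace Cfsg.Agent.GZ

open Subgroup Cfsg.Agent.FT Cfsg.Agent.L0 Cfsg.Agent.H8
open scoped ComplexConjugate Classical

variable {G : Type*} [Group G] [Fintype G] {p : ℕ} [hp : Fact p.Prime] {P X : Subgroup G} {g n u v x y z : G}
  {ι : Type*} [Fintype ι] {r : ι → G} {χ : IrrCharacter G}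

/-- `θ` is trivial on `Ω₁(Z(P))` -/
def Triv (hZ : Zp p P ≤ X) (θ : IrrCharacter X) : Prop := ∀ z : Zp p P, θ.1 (inclusion hZ z) = θ.1 1

section
variable (hZ : Zp p P ≤ X) (hX : X ≤ P) (θ : IrrCharacter X)
include hX

theorem mul_Z (a b : Zp p P) : θ.1 (inclusion hZ (a * b)) * θ.1 1 = θ.1 (inclusion hZ a) * θ.1 (inclusion hZ b) := by
  obtain ⟨c, -, hc⟩ := IsIrrCharacter.center_le_charCenter θ.2 (x := inclusion hZ a)
    (mem_center_iff.mpr fun g => Subtype.ext (mem_centralizer_iff.mp a.2.1.2 g (hX g.2)))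
  have := hc 1
  rw [mul_one] at this
  rw [map_mul, hc, this]; ring

theorem sum_Z : ∑ z : Zp p P, θ.1 (inclusion hZ z) = if Triv hZ θ then #|Zp p P| * θ.1 1 else 0 := by
  split_ifs with c
  · simp [c _, Nat.card_eq_fintype_card]
  obtain ⟨a, ha⟩ := not_forall.mp c
  have e : (∑ z : Zp p P, θ.1 (inclusion hZ z)) * θ.1 1 =
      θ.1 (inclusion hZ a) * ∑ z : Zp p P, θ.1 (inclusion hZ z) := by
    rw [Finset.mul_sum, ← Equiv.sum_comp (Equiv.mulLeft a) fun z => θ.1 (inclusion hZ z), Finset.sum_mul]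
    exact Finset.sum_congr rfl fun z _ => mul_Z hZ hX θ a z
  by_contra h0
  rw [mul_comm] at e
  exact ha (mul_right_cancel₀ h0 e).symm

theorem triv_of (hn : n ∈ 𝐍(P)) (h1 : ∀ z ∈ Zp p P, n * z = z * n → z = 1)
    (h2 : ∀ z : Zp p P, θ.1 (inclusion hZ ⟨_, Zp_conj hn z.2⟩) = θ.1 (inclusion hZ z)) : Triv hZ θ := fun z => by
  obtain ⟨y, rfl⟩ := (Finite.injective_iff_surjective (f := fun y : Zp p P => y⁻¹ * ⟨_, Zp_conj hn y.2⟩)).mp
    (fun a b hab => Subtype.ext (mul_inv_eq_one.mp (h1 _ (mul_mem a.2 (inv_mem b.2)) (by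
      have e : (a : G)⁻¹ * (n * a * n⁻¹) = (b : G)⁻¹ * (n * b * n⁻¹) := congrArg Subtype.val hab
      calc _ = a * ((a : G)⁻¹ * (n * a * n⁻¹)) * n * (b : G)⁻¹ := by group
        _ = _ := by rw [e]; group)))) z
  refine mul_right_cancel₀ (IsIrrCharacter.apply_one_ne_zero θ.2) ?_
  rw [mul_Z hZ hX, h2, ← mul_Z hZ hX, inv_mul_cancel, map_one]

theorem Hy.orb (h : Hy p P) (t : Tr P r) (hN : 𝐍(P) ≤ 𝐍(X)) (h1 : ¬ Triv hZ θ) :
    ∃ f : ι → IrrCharacter X, Function.Injective f ∧ ∀ i, ¬ Triv hZ (f i) ∧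
      classInner (fun x : X => χ.1 x) (f i).1 = classInner (fun x : X => χ.1 x) θ.1 := by
  let φ : ι → MulAut X := fun i => X.normalizerMonoidHom ⟨(r i)⁻¹, hN (inv_mem (t.mem i))⟩
  have hφ : ∀ i x, (φ i x : G) = (r i)⁻¹ * x * (r i)⁻¹⁻¹ := fun i x => rfl
  refine ⟨fun i => ⟨_, IsIrrCharacter.comp_of_surjective θ.2 (φ i).toMonoidHom (φ i).surjective⟩,
    fun i j e => ?_, fun i => ⟨fun c => h1 fun z => ?_, ?_⟩⟩
  · by_contra hne
    refine h1 (triv_of hZ hX θ (mul_mem (inv_mem (t.mem i)) (t.mem j))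
      (fun z hz e => by_contra fun z1 => hne (h.tr_inj t hz z1 e)) fun z => ?_)
    have : θ.1 (φ i _) = θ.1 (φ j _) := congrFun (congrArg Subtype.val e) (inclusion hZ ⟨_, Zp_conj (t.mem j) z.2⟩)
    convert this using 2 <;> exact Subtype.ext (by simp [hφ, mul_assoc])
  · have := c ⟨_, Zp_conj (t.mem i) z.2⟩
    simp only [map_one] at this
    convert this using 2
    exact Subtype.ext (by simp [hφ, mul_assoc])
  · rw [classInner_def, classInner_def, ← Equiv.sum_comp (φ i).toEquiv (fun x : X => χ.1 x * conj (θ.1 x))]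
    congr 1
    exact Finset.sum_congr rfl fun x _ => by
      rw [cf χ (isConj_iff.mpr ⟨(r i)⁻¹, rfl⟩ : IsConj (x : G) _)]; rfl

omit θ in
theorem Hy.res (h : Hy p P) (t : Tr P r) (hN : 𝐍(P) ≤ 𝐍(X)) : ∃ m d : IrrCharacter X → ℕ,
    (∀ θ, θ.1 1 = d θ) ∧ (∀ x : X, χ.1 x = ∑ θ, m θ * θ.1 x) ∧
    (∑ x : X, ‖χ.1 x‖ ^ 2 = #|X| * ∑ θ, (m θ : ℝ) ^ 2) ∧
    (∑ z : Zp p P, χ.1 z = #|Zp p P| * (∑ θ with Triv hZ θ, m θ * d θ : ℕ)) ∧
    (#|Zp p P| * ∑ θ with Triv hZ θ, d θ ^ 2 = #|X|) ∧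
    ∀ θ, ¬ Triv hZ θ → ∀ F : ℕ → ℕ, Fintype.card ι * F (m θ) ≤ ∑ θ with ¬ Triv hZ θ, F (m θ) := by
  have hc := IsCharacter.restrict (IsIrrCharacter.isCharacter χ.2) X
  obtain ⟨m, hm, e⟩ := IsCharacter.exists_eq_sum_nsmul hc
  choose d hd using fun θ : IrrCharacter X => IsCharacter.exists_nat (IsIrrCharacter.isCharacter θ.2)
  have e1 : ∀ x : X, χ.1 x = ∑ θ, m θ * θ.1 x := fun x => by simpa using congrFun e x
  refine ⟨m, d, hd, e1, ?_, ?_, ?_, fun θ hθ F => ?_⟩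
  · have e2 := IsClassFunction.classInner_eq_sum (θ := fun x : X => χ.1 x) (IsCharacter.isClassFunction hc)
    rw [classInner_self_eq] at e2
    simp only [hm, map_natCast, ← pow_two] at e2
    have e3 : (Nat.card X : ℝ)⁻¹ * ∑ x : X, ‖χ.1 x‖ ^ 2 = ∑ θ, (m θ : ℝ) ^ 2 := by exact_mod_cast e2
    rw [← e3, mul_inv_cancel_left₀ (by exact_mod_cast Nat.card_pos.ne')]
  · rw [Finset.sum_congr rfl fun (z : Zp p P) _ => show χ.1 z = _ from e1 (inclusion hZ z), Finset.sum_comm]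
    simp only [← Finset.mul_sum, sum_Z hZ hX, Finset.sum_filter, hd]
    push_cast
    rw [Finset.mul_sum]
    exact Finset.sum_congr rfl fun θ _ => by split_ifs <;> ring
  · have e2 : ∑ z : Zp p P, ∑ θ : IrrCharacter X, θ.1 1 * θ.1 (inclusion hZ z) = #|X| := by
      simp only [sum_irr_degree_mul, map_eq_one_iff _ (inclusion_injective hZ)]
      simp
    rw [Finset.sum_comm] at e2
    simp only [← Finset.mul_sum, sum_Z hZ hX, hd] at e2
    have : ((#|Zp p P| * ∑ θ with Triv hZ θ, d θ ^ 2 : ℕ) : ℂ) = #|X| := by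
      rw [← e2, Finset.sum_filter]
      push_cast
      rw [Finset.mul_sum]
      exact Finset.sum_congr rfl fun θ _ => by split_ifs <;> ring
    exact_mod_cast this
  · obtain ⟨f, hf, h2⟩ := h.orb (χ := χ) hZ hX θ t hN hθ
    have e3 : ∀ i, m (f i) = m θ := fun i => by have := (h2 i).2; rw [hm, hm] at this; exact_mod_cast this
    calc _ = ∑ i, F (m (f i)) := by simp [e3]
      _ = ∑ θ ∈ Finset.univ.image f, F (m θ) := by rw [Finset.sum_image fun a _ b _ e => hf e]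
      _ ≤ _ := Finset.sum_le_sum_of_subset fun θ hθ => by
        obtain ⟨i, -, rfl⟩ := Finset.mem_image.mp hθ
        exact Finset.mem_filter.mpr ⟨Finset.mem_univ _, (h2 i).1⟩

end

theorem Hy.key [IsSimpleGroup G] (h : Hy p P) (t : Tr P r) (h0 : Zp p P ≠ ⊥) (hχ : χ ∈ prinBlk p G)
    (h1 : χ ≠ irrOne G) : ∃ a D : ℕ, χ.1 1 = (a + D : ℕ) ∧ 0 < D ∧ ∑ z : Zp p P, χ.1 z = #|Zp p P| * a ∧
      #|Zp p P| * a ^ 2 ≤ (a + D) ^ 2 ∧
      Fintype.card ι * ∑ z : Zp p P, ‖χ.1 z‖ ^ 2 ≤ #|Zp p P| * (Fintype.card ι * (a : ℝ) ^ 2 + (D : ℝ) ^ 2) := by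
  have hk := IsIrrCharacter.charKer_eq_bot_of_isSimpleGroup χ.2 fun e => h1 (Subtype.ext e)
  have hZP : Zp p P ≤ P := Zp_le.trans inf_le_left
  have hn : (0 : ℕ) < #|Zp p P| := Nat.card_pos
  have nt : ∀ {X : Subgroup G} (hZ : Zp p P ≤ X) (m : IrrCharacter X → ℕ), (∀ x : X, χ.1 x = ∑ θ, m θ * θ.1 x) →
      ∃ θ, ¬ Triv hZ θ ∧ m θ ≠ 0 := fun hZ m e => by
    by_contra hc
    refine h0 (eq_bot_iff.mpr (hk ▸ fun z hz => (IsCharacter.mem_charKer_iff (IsIrrCharacter.isCharacter χ.2)).mpr ?_))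
    rw [e ⟨z, hZ hz⟩, show χ.1 1 = _ from e 1]
    refine Finset.sum_congr rfl fun θ _ => ?_
    by_cases c : Triv hZ θ
    · rw [← c ⟨z, hz⟩]; rfl
    · rw [not_not.mp fun e => hc ⟨θ, c, e⟩]; simp
  obtain ⟨m, d, e1, e2, e3, e4, -, e6⟩ := h.res (χ := χ) le_rfl hZP t fun n hn =>
    mem_normalizer_of_cj_le (by rintro _ ⟨z, hz, rfl⟩; exact Zp_conj hn hz)
  obtain ⟨m', d', f1, f2, f3, f4, f5, f6⟩ := h.res (χ := χ) hZP le_rfl t le_rfl
  have : IsMulCommutative (Zp p P) := ⟨⟨fun a b => Subtype.ext (mem_centralizer_iff.mp b.2.1.2 a a.2.1.1)⟩⟩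
  have d1 : ∀ θ, d θ = 1 := fun θ => by
    have := IsIrrCharacter.apply_one_of_isMulCommutative θ.2
    rw [e1] at this; exact_mod_cast this
  simp only [d1, mul_one] at e4
  set a := ∑ θ with Triv (le_refl (Zp p P)) θ, m θ
  set D := ∑ θ with ¬ Triv (le_refl (Zp p P)) θ, m θ
  have hd : χ.1 1 = (a + D : ℕ) := by
    rw [show χ.1 1 = _ from e2 1, Finset.sum_filter_add_sum_filter_not]
    simp [e1, d1]
  refine ⟨a, D, hd, ?_, e4, ?_, ?_⟩
  · obtain ⟨θ, c, c'⟩ := nt _ m e2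
    exact (Nat.pos_of_ne_zero c').trans_le (Finset.single_le_sum (f := m) (fun _ _ => Nat.zero_le _)
      (Finset.mem_filter.mpr ⟨Finset.mem_univ _, c⟩))
  · obtain ⟨θ, c, c'⟩ := nt _ m' f2
    have k1 := (Nat.le_mul_of_pos_right _ (by positivity)).trans (f6 θ c (· ^ 2))
    have k2 := h.bessel t hχ
    have k3 : ∑ x : P, ‖χ.1 x‖ ^ 2 = ((a + D : ℕ) : ℝ) ^ 2 + ∑ u ∈ (Finset.univ : Finset P).erase 1, ‖χ.1 u‖ ^ 2 := by
      rw [← Finset.add_sum_erase _ _ (Finset.mem_univ 1), coe_one, hd, Complex.norm_natCast]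
    have k4 : a = ∑ θ with Triv hZP θ, m' θ * d' θ := by
      rw [e4] at f4
      exact_mod_cast mul_left_cancel₀ (by exact_mod_cast hn.ne') f4
    have k5 := Finset.sum_mul_sq_le_sq_mul_sq (Finset.univ.filter (Triv hZP)) m' d'
    have k6 : #|P| * (∑ θ with Triv hZP θ, m' θ ^ 2 + ∑ θ with ¬ Triv hZP θ, m' θ ^ 2) ≤
        (a + D) ^ 2 + Fintype.card ι * #|P| := by
      rw [Finset.sum_filter_add_sum_filter_not]
      have : ((#|P| * ∑ θ, m' θ ^ 2 : ℕ) : ℝ) ≤ ((a + D) ^ 2 + Fintype.card ι * #|P| : ℕ) := by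
        push_cast at k3 ⊢; linarith
      exact_mod_cast this
    rw [← k4] at k5
    have k7 := Nat.mul_le_mul_left #|P| k1
    calc _ ≤ #|Zp p P| * _ := Nat.mul_le_mul_left _ k5
      _ = #|P| * ∑ θ with Triv hZP θ, m' θ ^ 2 := by rw [← f5]; ring
      _ ≤ _ := by nlinarith
  · have k1 : ∑ θ with Triv (le_refl (Zp p P)) θ, m θ ^ 2 ≤ a ^ 2 := by
      rw [pow_two a, Finset.sum_mul]
      exact Finset.sum_le_sum fun θ hθ => by
        rw [pow_two]; exact Nat.mul_le_mul_left _ (Finset.single_le_sum (f := m) (fun _ _ => Nat.zero_le _) hθ)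
    have k2 : Fintype.card ι * ∑ θ with ¬ Triv (le_refl (Zp p P)) θ, m θ ^ 2 ≤ D ^ 2 := by
      rw [pow_two D, Finset.sum_mul, Finset.mul_sum]
      exact Finset.sum_le_sum fun θ hθ => by
        rw [pow_two, mul_left_comm]; exact Nat.mul_le_mul_left _ (e6 θ (Finset.mem_filter.mp hθ).2 id)
    have k3 : Fintype.card ι * ∑ θ, m θ ^ 2 ≤ Fintype.card ι * a ^ 2 + D ^ 2 := by
      rw [← Finset.sum_filter_add_sum_filter_not _ (Triv (le_refl (Zp p P))), mul_add]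
      exact add_le_add (Nat.mul_le_mul_left _ k1) k2
    rw [e3, mul_left_comm]
    exact mul_le_mul_of_nonneg_left (by exact_mod_cast k3) (by positivity)

end Cfsg.Agent.GZ
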