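import Cfsg.Agent.GZ.G3

/-! For odd `p` there is no simple group satisfying the hypothesis. -/

set_option autoImplicit false
set_option linter.unusedSectionVars false

namespace Cfsg.Agent.GZ

open Subgroup Cfsg.Agent.FT Cfsg.Agent.L0 Cfsg.Agent.H8
open scoped ComplexConjugate Classical

variable {G : Type*} [Group G] [Fintype G] {p : ℕ} [hp : Fact p.Prime] {P : Subgroup G} {g n u v x y z : G}
  {ι : Type*} [Fintype ι] {r : ι → G} {χ : IrrCharacter G}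

/-- two elements of order `p` generate a `p`-solvable group -/
def Sol (p : ℕ) (G : Type*) [Group G] : Prop :=
  ∀ x y : G, orderOf x = p → orderOf y = p → IsPSolvable p (closure {x, y})

theorem avg (χ : IrrCharacter G) (x y : G) :
    ∑ g : G, χ.1 (x * (g * y * g⁻¹)) = Fintype.card G * (χ.1 x * χ.1 y / χ.1 1) := by
  simp only [IsCharacter.mul_comm (IsIrrCharacter.isCharacter χ.2) x]
  rw [IsIrrCharacter.sum_conj_mul χ.2, Nat.card_eq_fintype_card]; ring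

namespace Hy

variable (h : Hy p P) (hs : Sol p G)
include h hs

theorem exists_pi (hx : x ∈ Zp p P) (x1 : x ≠ 1) (hy : y ∈ Zp p P) (y1 : y ≠ 1) : ∃ π : G → Zp p P, ∀ g,
    IsConj y (π g) ∧ (∀ u, IsPPart p (x * (g * y * g⁻¹)) u → IsConj u (x * π g)) ∧
      ∀ u, IsPPart p (x * (g * y * g⁻¹)⁻¹) u → IsConj u (x * (π g : G)⁻¹) := by
  choose π h1 h2 using fun g => h.pair hx hy (hs x (g * y * g⁻¹) (Zp_order hx x1) (by
    rw [← Zp_order hy y1]; exact (MulAut.conj g).orderOf_eq y))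
  exact ⟨fun g => ⟨π g, h1 g⟩, h2⟩

omit hs in
theorem val (hχ : χ ∈ prinBlk p G) (h1 : ∀ u, IsPPart p g u → IsConj u v) (v1 : v ≠ 1) : χ.1 g = χ.1 v := by
  obtain ⟨u, hu⟩ := exists_isPPart hp.out g
  rw [h.sec hχ hu fun e => v1 (isConj_one_right.mp (e ▸ h1 u hu)), cf χ (h1 u hu)]

theorem lb {β : Type*} (hx : x ∈ Zp p P) (x1 : x ≠ 1) (hy : y ∈ Zp p P) (y1 : y ≠ 1) (hn : ¬ IsConj x⁻¹ y)
    (φ : Zp p P → β) (T : Finset β) (hT : ∀ a : Zp p P, IsConj y a → x * a ≠ 1 → φ a ∈ T)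
    (hφ : ∀ a b, φ a = φ b → IsConj (x * a) (x * b)) :
    (#|P| : ℝ) ≤ T.card * ∑ χ ∈ prinBlk p G, ‖χ.1 x‖ ^ 2 * ‖χ.1 y‖ ^ 2 / ‖χ.1 1‖ ^ 2 := by
  obtain ⟨π, hπ⟩ := h.exists_pi hs hx x1 hy y1
  have ne : ∀ g, x * π g ≠ 1 := fun g e => hn (by rw [← eq_inv_of_mul_eq_one_right e]; exact (hπ g).1.symm)
  have e := h.gram Finset.univ (fun g => x * π g) (fun _ => 1) fun g _ => mul_mem hx.1.1 (π g).2.1.1
  have e1 : ∀ χ ∈ prinBlk p G, ‖∑ g, 1 * χ.1 (x * π g)‖ ^ 2 =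
      (Fintype.card G : ℝ) ^ 2 * (‖χ.1 x‖ ^ 2 * ‖χ.1 y‖ ^ 2 / ‖χ.1 1‖ ^ 2) := fun χ hχ => by
    rw [Finset.sum_congr rfl fun g _ => by rw [one_mul, ← h.val hχ (hπ g).2.1 (ne g)], avg]
    simp [mul_pow, div_pow]
  have e2 : ∀ g g', (1 : ℂ) * conj 1 * (if IsConj (x * π g) (x * π g') then (cR p (x * π g) : ℂ) else 0) =
      ((#|P| * if IsConj (x * π g) (x * π g') then 1 else 0 : ℝ) : ℂ) := fun g g' => by
    rw [h.cR_Z (mul_mem hx (π g).2) (ne g)]; split_ifs <;> simp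
  rw [Finset.sum_congr rfl e1] at e
  simp only [e2, ← Complex.ofReal_sum, Complex.ofReal_inj, ← Finset.mul_sum] at e
  have h3 := card_same (fun g => φ (π g)) T fun g => hT _ (hπ g).1 (ne g)
  have h4 : ∑ g, ∑ g', (if φ (π g) = φ (π g') then (1 : ℝ) else 0) ≤
      ∑ g, ∑ g', if IsConj (x * π g) (x * π g') then 1 else 0 :=
    Finset.sum_le_sum fun g _ => Finset.sum_le_sum fun g' _ => by
      split_ifs with c1 c2
      exacts [le_rfl, absurd (hφ _ _ c1) c2, zero_le_one, le_rfl]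
  have h5 : (0 : ℝ) < (Fintype.card G : ℝ) ^ 2 := by have := Fintype.card_pos (α := G); positivity
  refine le_of_mul_le_mul_left ?_ h5
  rw [mul_left_comm, e, mul_left_comm, mul_comm]
  exact mul_le_mul_of_nonneg_left (h3.trans (mul_le_mul_of_nonneg_left h4 (by positivity))) (by positivity)

end Hy

/-- the nonidentity elements of `Ω₁(Z(P))` -/
noncomputable abbrev Zs (p : ℕ) (P : Subgroup G) : Finset (Zp p P) := Finset.univ.erase 1

theorem mem_Zs {z : Zp p P} : z ∈ Zs p P ↔ (z : G) ≠ 1 := by simp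

theorem card_Zs : (#|Zp p P| : ℝ) = (Zs p P).card + 1 := by
  rw [Nat.card_eq_fintype_card, ← Finset.card_univ, ← Finset.card_erase_add_one (Finset.mem_univ 1)]; simp

/-- `∑ |χ(z)|²` -/
noncomputable def SS (p : ℕ) (P : Subgroup G) (χ : IrrCharacter G) : ℝ := ∑ z ∈ Zs p P, ‖χ.1 z‖ ^ 2

theorem SS_eq : ∑ z : Zp p P, ‖χ.1 z‖ ^ 2 = ‖χ.1 1‖ ^ 2 + SS p P χ := by
  rw [← Finset.add_sum_erase _ _ (Finset.mem_univ 1)]; rfl

theorem Hy.w_ineq (h : Hy p P) (t : Tr P r) (hlt : Fintype.card ι < (Zs p P).card) {m β : ℝ} (hm : 0 < m)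
    (hl : ∀ x ∈ Zs p P, ∀ y ∈ Zs p P, ¬ IsConj (x : G)⁻¹ y →
      (#|P| : ℝ) ≤ m * ∑ χ ∈ prinBlk p G, ‖χ.1 x‖ ^ 2 * ‖χ.1 y‖ ^ 2 / ‖χ.1 1‖ ^ 2)
    (hb : ∀ χ ∈ prinBlk p G, χ ≠ irrOne G → SS p P χ / ‖χ.1 1‖ ^ 2 ≤ β) :
    ((Zs p P).card * #|P| : ℝ) ≤ m * ((Zs p P).card + β * (#|P| - 1)) ∧
    ((∃ χ ∈ prinBlk p G, χ ≠ irrOne G ∧ 0 < SS p P χ ∧ SS p P χ / ‖χ.1 1‖ ^ 2 < β) →
      ((Zs p P).card * #|P| : ℝ) < m * ((Zs p P).card + β * (#|P| - 1))) := by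
  set N : ℝ := ((Zs p P).card : ℝ)
  set e : ℝ := (Fintype.card ι : ℝ)
  set q : ℝ := (#|P| : ℝ)
  have heN : e < N := by simp only [e, N]; exact_mod_cast hlt
  have he : 0 ≤ e := by positivity
  have hN : 0 < N := by linarith
  have c1 : ∀ x ∈ Zs p P, (((Zs p P).filter fun y : Zp p P => IsConj (x : G)⁻¹ y).card : ℝ) = e := fun x hx => by
    rw [h.cls_Z t (inv_mem x.2) (inv_ne_one.mpr (mem_Zs.mp hx))]
  have c2 : ∀ x ∈ Zs p P, ∀ f : Zp p P → ℝ, ∀ c, (∀ y : Zp p P, IsConj (x : G)⁻¹ y → f y = c) →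
      ∑ y ∈ (Zs p P).filter (fun y : Zp p P => ¬ IsConj (x : G)⁻¹ y), f y = ∑ y ∈ Zs p P, f y - e * c := fun x hx f c hf => by
    rw [← Finset.sum_filter_add_sum_filter_not (Zs p P) (fun y : Zp p P => IsConj (x : G)⁻¹ y) f,
      Finset.sum_congr rfl fun y hy => hf y (Finset.mem_filter.mp hy).2, Finset.sum_const, nsmul_eq_mul, c1 x hx]
    ring
  have k1 : N * ((N - e) * q) ≤ m * ∑ χ ∈ prinBlk p G, (N - e) / N * (SS p P χ ^ 2 / ‖χ.1 1‖ ^ 2) := by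
    calc _ = ∑ x ∈ Zs p P, ∑ y ∈ (Zs p P).filter (fun y : Zp p P => ¬ IsConj (x : G)⁻¹ y), q := by
          rw [Finset.sum_congr rfl fun x hx => c2 x hx _ q fun _ _ => rfl]; simp [N]; ring
      _ ≤ ∑ x ∈ Zs p P, ∑ y ∈ (Zs p P).filter (fun y : Zp p P => ¬ IsConj (x : G)⁻¹ y),
          m * ∑ χ ∈ prinBlk p G, ‖χ.1 x‖ ^ 2 * ‖χ.1 y‖ ^ 2 / ‖χ.1 1‖ ^ 2 :=
          Finset.sum_le_sum fun x hx => Finset.sum_le_sum fun y hy =>
            hl x hx y (Finset.mem_filter.mp hy).1 (Finset.mem_filter.mp hy).2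
      _ = m * ∑ χ ∈ prinBlk p G, (SS p P χ ^ 2 - e * ∑ x ∈ Zs p P, (‖χ.1 x‖ ^ 2) ^ 2) / ‖χ.1 1‖ ^ 2 := by
          simp only [← Finset.mul_sum]
          congr 1
          rw [Finset.sum_congr rfl fun x _ => Finset.sum_comm, Finset.sum_comm]
          refine Finset.sum_congr rfl fun χ _ => ?_
          simp only [← Finset.sum_div, ← Finset.mul_sum]
          congr 1
          rw [Finset.sum_congr rfl fun x hx => by
            rw [c2 x hx (fun y => ‖χ.1 y‖ ^ 2) (‖χ.1 x‖ ^ 2) fun y hy => by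
              rw [← cf χ hy, IsCharacter.apply_inv (IsIrrCharacter.isCharacter χ.2), Complex.norm_conj]]]
          simp only [mul_sub, Finset.sum_sub_distrib, Finset.mul_sum, SS]
          rw [pow_two (∑ _ ∈ _, _), Finset.sum_mul_sum]
          exact congrArg _ (Finset.sum_congr rfl fun _ _ => by ring)
      _ ≤ _ := by
          refine mul_le_mul_of_nonneg_left (Finset.sum_le_sum fun χ _ => ?_) hm.le
          rw [← mul_div_assoc]
          refine div_le_div_of_nonneg_right ?_ (by positivity)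
          have : SS p P χ ^ 2 ≤ N * ∑ x ∈ Zs p P, (‖χ.1 x‖ ^ 2) ^ 2 := sq_sum_le_card_mul_sum_sq
          rw [div_mul_eq_mul_div, le_div_iff₀ hN]
          nlinarith
  have k2 : N * (N * q) ≤ m * ∑ χ ∈ prinBlk p G, SS p P χ ^ 2 / ‖χ.1 1‖ ^ 2 := by
    rw [← Finset.mul_sum, mul_left_comm m] at k1
    refine le_of_mul_le_mul_left (le_of_eq_of_le ?_ k1) (div_pos (by linarith) hN)
    field_simp
  have o := irrOne_mem_prinBlk (G := G) hp.out
  have s1 : SS p P (irrOne G) = N := by simp [SS, N]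
  have k3 : ∑ χ ∈ (prinBlk p G).erase (irrOne G), SS p P χ = N * (q - 1) := by
    have : ∑ χ ∈ prinBlk p G, SS p P χ = N * q := by
      unfold SS
      rw [Finset.sum_comm, Finset.sum_congr rfl fun (z : Zp p P) hz =>
        show ∑ χ ∈ prinBlk p G, ‖χ.1 z‖ ^ 2 = q from h.cR_Z z.2 (mem_Zs.mp hz)]; simp [N, q]
    rw [← Finset.add_sum_erase _ _ o, s1] at this
    linarith
  rw [← Finset.add_sum_erase _ _ o, s1] at k2
  simp only [irrOne_apply, norm_one, one_pow, div_one] at k2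
  have k4 : ∀ χ ∈ (prinBlk p G).erase (irrOne G), SS p P χ ^ 2 / ‖χ.1 1‖ ^ 2 ≤ β * SS p P χ := fun χ hχ => by
    rw [pow_two, mul_div_right_comm]
    exact mul_le_mul_of_nonneg_right (hb χ (Finset.mem_of_mem_erase hχ) (Finset.ne_of_mem_erase hχ))
      (Finset.sum_nonneg fun _ _ => by positivity)
  refine ⟨le_of_mul_le_mul_left (k2.trans ?_) hN, fun ⟨χ, c1, c2, c3, c4⟩ => lt_of_mul_lt_mul_left (k2.trans_lt ?_) hN.le⟩
  · have := Finset.sum_le_sum k4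
    rw [← Finset.mul_sum, k3] at this
    nlinarith
  · have := Finset.sum_lt_sum k4 ⟨χ, Finset.mem_erase.mpr ⟨c2, c1⟩, by
      rw [pow_two, mul_div_right_comm]; exact mul_lt_mul_of_pos_right c4 c3⟩
    rw [← Finset.mul_sum, k3] at this
    nlinarith

end Cfsg.Agent.GZ
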