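import Cfsg.Agent.GZ.G4

/-! For odd `p` there is no simple group satisfying the hypothesis: conclusion. -/

set_option autoImplicit false
set_option linter.unusedSectionVars false

namespace Cfsg.Agent.GZ

open Subgroup Cfsg.Agent.FT Cfsg.Agent.L0 Cfsg.Agent.H8
open scoped ComplexConjugate Classical

variable {G : Type*} [Group G] [Fintype G] {p : ℕ} [hp : Fact p.Prime] {P : Subgroup G} {g n u v x y z : G}
  {ι : Type*} [Fintype ι] {r : ι → G} {χ : IrrCharacter G}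

theorem mem_sup_cent (hn : n ∈ P ⊔ 𝐂(P)) : ∃ a ∈ P, ∃ c ∈ 𝐂(P), a * c = n :=
  (mem_sup_of_le_normalizer' (le_normalizer.trans (H8.normalizer_le_normalizer_centralizer _))).mp hn

namespace Hy

variable (h : Hy p P) (t : Tr P r)
include h t

theorem two_le (h0 : pPrimeCore p G = ⊥) (hn : ¬ P.Normal) : 2 ≤ Fintype.card ι := by
  by_contra hc
  have : Subsingleton ι := Fintype.card_le_one_iff_subsingleton.mp (by omega)
  obtain ⟨S, rfl⟩ := h.syl.exists_sylow_top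
  have h1 := H6.hasNormalPComplement_of_controls_fusion S fun x hx g hg => by
    obtain ⟨n, hn, e⟩ := h.fus x hx g hg
    obtain ⟨i, a, ha, c, hc, rfl⟩ := t.cover n hn
    obtain ⟨j, a', ha', c', hc', e'⟩ := t.cover 1 (one_mem _)
    obtain rfl := Subsingleton.elim i j
    have e1 : r i = c'⁻¹ * a'⁻¹ := by rw [← one_mul c'⁻¹, e']; group
    obtain ⟨b, hb, d, hd, e2⟩ := mem_sup_cent (mul_mem (mul_mem (e1 ▸ mul_mem (mem_sup_right (inv_mem hc'))
      (mem_sup_left (inv_mem ha'))) (mem_sup_left ha)) (mem_sup_right hc))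
    exact ⟨b, hb, by rw [← e, ← e2, mul_assoc b d, ← mem_centralizer_iff.mp hd x hx]; group⟩
  exact hn (by rw [← h.syl.max ⊤ le_rfl (pg_of_np h0 (H6.HasNormalPComplement.subgroup h1 ⊤)) le_top]; infer_instance)

theorem card_Zs_eq : (Zs p P).card =
    Fintype.card ι * ((Zs p P).image fun z : Zp p P => ConjClasses.mk (z : G)).card := by
  rw [Finset.card_eq_sum_card_image (fun z : Zp p P => ConjClasses.mk (z : G)), mul_comm, ← smul_eq_mul,
    ← Finset.sum_const]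
  refine Finset.sum_congr rfl fun b hb => ?_
  obtain ⟨z, hz, rfl⟩ := Finset.mem_image.mp hb
  rw [← h.cls_Z t z.2 (mem_Zs.mp hz)]
  congr 1
  exact Finset.filter_congr fun v _ => by rw [ConjClasses.mk_eq_mk_iff_isConj, isConj_comm]

variable [IsSimpleGroup G] (h0 : Zp p P ≠ ⊥)
include h0

theorem bd (hχ : χ ∈ prinBlk p G) (h1 : χ ≠ irrOne G) : ∃ a D : ℕ, ‖χ.1 1‖ = a + D ∧ (0 : ℝ) < D ∧
    ∑ z : Zp p P, χ.1 z = #|Zp p P| * a ∧ (#|Zp p P| : ℝ) * a ^ 2 ≤ (a + D) ^ 2 ∧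
      Fintype.card ι * ((a + D) ^ 2 + SS p P χ) ≤ #|Zp p P| * (Fintype.card ι * (a : ℝ) ^ 2 + (D : ℝ) ^ 2) := by
  obtain ⟨a, D, e1, e2, e3, e4, e5⟩ := h.key t h0 hχ h1
  have e : ‖χ.1 1‖ = a + D := by rw [e1, Complex.norm_natCast]; simp
  exact ⟨a, D, e, by exact_mod_cast e2, e3, by exact_mod_cast e4, by rwa [SS_eq, e] at e5⟩

variable (hs : Sol p G)
include hs

theorem caseA (h2 : 2 ≤ ((Zs p P).image fun z : Zp p P => ConjClasses.mk (z : G)).card)
    (h3 : ((Zs p P).image fun z : Zp p P => ConjClasses.mk (z : G)).card < Fintype.card ι) : False := by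
  have hN := h.card_Zs_eq t
  have hn := card_Zs (p := p) (P := P)
  set T := (Zs p P).image fun z : Zp p P => ConjClasses.mk (z : G)
  have he : (0 : ℝ) < Fintype.card ι := by exact_mod_cast (by omega : 0 < Fintype.card ι)
  have hk : (0 : ℝ) < T.card := by exact_mod_cast (by omega : 0 < T.card)
  have := (h.w_ineq t (by nlinarith) hk (β := #|Zp p P| / Fintype.card ι) (fun x hx y hy c =>
    h.lb hs x.2 (mem_Zs.mp hx) y.2 (mem_Zs.mp hy) c (fun a => ConjClasses.mk (x * a : G)) T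
      (fun a _ c => Finset.mem_image.mpr ⟨x * a, mem_Zs.mpr c, rfl⟩)
      fun a b => ConjClasses.mk_eq_mk_iff_isConj.mp) fun χ hχ h1 => by
    obtain ⟨a, D, e1, e2, -, e4, e5⟩ := h.bd t h0 hχ h1
    have : (0 : ℝ) ≤ a := by positivity
    rw [e1, div_le_div_iff₀ (by positivity) he]
    have k1 := mul_le_mul_of_nonneg_left e4 he.le
    have k2 : (#|Zp p P| : ℝ) * D ^ 2 ≤ #|Zp p P| * (a + D) ^ 2 := by gcongr; linarith
    nlinarith).1
  have hq : (#|Zp p P| : ℝ) ≤ #|P| := by exact_mod_cast card_le_of_le (Zp_le.trans inf_le_left)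
  have hN' : ((Zs p P).card : ℝ) = Fintype.card ι * T.card := by exact_mod_cast hN
  have hk' : (T.card : ℝ) + 1 ≤ Fintype.card ι := by exact_mod_cast h3
  set e : ℝ := (Fintype.card ι : ℝ)
  set k : ℝ := (T.card : ℝ)
  set q : ℝ := (#|P| : ℝ)
  rw [hn, hN'] at this hq
  have k1 : e * (e * q) ≤ e * (e * k) + (e * k + 1) * (q - 1) := by
    refine le_of_mul_le_mul_left (le_of_eq_of_le ?_ ((mul_le_mul_of_nonneg_left this he.le).trans_eq ?_)) hk
    · ring
    · field_simp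
  have k2 : e * (k + 1) ≤ e * e := by gcongr
  have k3 : (e * k + 1) * (e - 1) ≤ q * (e * e - (e * k + 1)) := mul_le_mul hq (by linarith) (by linarith) (by nlinarith)
  nlinarith

theorem caseB (h2 : 2 ≤ Fintype.card ι)
    (h3 : Fintype.card ι ≤ ((Zs p P).image fun z : Zp p P => ConjClasses.mk (z : G)).card) : False := by
  have hN := h.card_Zs_eq t
  have hn := card_Zs (p := p) (P := P)
  set T := (Zs p P).image fun z : Zp p P => ConjClasses.mk (z : G)
  have he : (2 : ℝ) ≤ Fintype.card ι := by exact_mod_cast h2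
  have hq : (#|Zp p P| : ℝ) ≤ #|P| := by exact_mod_cast card_le_of_le (Zp_le.trans inf_le_left)
  have hN' : (Fintype.card ι : ℝ) ^ 2 ≤ (Zs p P).card := by
    rw [hN, pow_two]; exact_mod_cast Nat.mul_le_mul_left _ h3
  have hb : ∀ χ ∈ prinBlk p G, χ ≠ irrOne G → SS p P χ / ‖χ.1 1‖ ^ 2 ≤ #|Zp p P| / Fintype.card ι - 1 ∧
      (∑ z : Zp p P, χ.1 z ≠ 0 → SS p P χ / ‖χ.1 1‖ ^ 2 < #|Zp p P| / Fintype.card ι - 1) := fun χ hχ h1 => by
    obtain ⟨a, D, e1, e2, e3, e4, e5⟩ := h.bd t h0 hχ h1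
    have : (0 : ℝ) ≤ a := by positivity
    have k0 : (0 : ℝ) < #|Zp p P| := by linarith [(by positivity : (0 : ℝ) ≤ (Zs p P).card)]
    have k1 : Fintype.card ι * a ≤ (a + D : ℝ) := by
      refine le_of_sq_le_sq (le_trans ?_ e4) (by positivity)
      rw [mul_pow]; gcongr; linarith
    have k2 := mul_le_mul_of_nonneg_left k1 this
    rw [e1, div_sub_one (by positivity), div_le_div_iff₀ (by positivity) (by positivity),
      div_lt_div_iff₀ (by positivity) (by positivity)]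
    refine ⟨?_, fun c => ?_⟩
    · have : (#|Zp p P| : ℝ) * (Fintype.card ι * (a : ℝ) ^ 2 + (D : ℝ) ^ 2) ≤ #|Zp p P| * (a + D) ^ 2 := by
        gcongr; nlinarith
      nlinarith
    · have : (0 : ℝ) < a := by
        rw [e3] at c; exact_mod_cast Nat.pos_of_ne_zero (by rintro rfl; simp at c)
      have : (#|Zp p P| : ℝ) * (Fintype.card ι * (a : ℝ) ^ 2 + (D : ℝ) ^ 2) < #|Zp p P| * (a + D) ^ 2 := by
        gcongr; nlinarith
      nlinarith
  have := (h.w_ineq t (by nlinarith) (by linarith : (0 : ℝ) < Fintype.card ι) (fun x hx y hy c => by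
    rw [← h.cls_Z t y.2 (mem_Zs.mp hy)]
    exact h.lb hs x.2 (mem_Zs.mp hx) y.2 (mem_Zs.mp hy) c id _
      (fun a c _ => Finset.mem_filter.mpr ⟨mem_Zs.mpr fun e => mem_Zs.mp hy (isConj_one_left.mp (e ▸ c)), c⟩)
      fun a b e => by rw [show a = b from e]) fun χ hχ h1 => (hb χ hχ h1).1).2 (by
    obtain ⟨x, hx, x1⟩ := exists_mem_ne_one h0
    by_contra hc
    have e1 : ∑ χ ∈ prinBlk p G, χ.1 x * conj (∑ z : Zp p P, χ.1 z) = Fintype.card ι * #|P| := by
      simp only [map_sum, Finset.mul_sum]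
      rw [Finset.sum_comm, Finset.sum_congr rfl fun (z : Zp p P) _ => h.orth hx.1.1 z.2.1.1,
        ← Finset.add_sum_erase _ _ (Finset.mem_univ 1), coe_one, if_neg fun c => x1 (isConj_one_left.mp c),
        ← Finset.sum_filter, Finset.sum_const, h.cls_Z t hx x1, h.cR_Z hx x1]
      simp
    rw [← Finset.add_sum_erase _ _ (irrOne_mem_prinBlk hp.out), Finset.sum_eq_zero (s := Finset.erase _ _) fun χ hχ => by
      by_contra c
      have c1 := Finset.mem_erase.mp hχ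
      refine hc ⟨χ, c1.2, c1.1, ?_, (hb χ c1.2 c1.1).2 fun e => c (by simp [e])⟩
      exact Finset.sum_pos' (fun _ _ => by positivity)
        ⟨⟨x, hx⟩, mem_Zs.mpr x1, pow_pos (norm_pos_iff.mpr (left_ne_zero_of_mul c)) 2⟩] at e1
    simp only [irrOne_apply, Finset.sum_const, Finset.card_univ, ← Nat.card_eq_fintype_card (α := Zp p P)] at e1
    have e2 : (#|Zp p P| : ℝ) = Fintype.card ι * #|P| := by
      have : ((#|Zp p P| : ℕ) : ℂ) = (Fintype.card ι * #|P| : ℕ) := by simpa using e1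
      exact_mod_cast this
    nlinarith)
  rw [hn] at this hq
  set e : ℝ := (Fintype.card ι : ℝ)
  set N : ℝ := ((Zs p P).card : ℝ)
  set q : ℝ := (#|P| : ℝ)
  have k1 : N * q < e * N + (N + 1 - e) * (q - 1) := this.trans_eq (by field_simp)
  nlinarith

omit t in
theorem caseC (hp2 : p ≠ 2) (t : Tr P r) (h1 : ∀ x ∈ Zp p P, x ≠ 1 → ∀ y ∈ Zp p P, y ≠ 1 → IsConj x y) : False := by
  obtain ⟨x, hx, x1⟩ := exists_mem_ne_one h0
  have hn := card_Zs (p := p) (P := P)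
  have hN : (0 : ℝ) < (Zs p P).card := by exact_mod_cast Finset.card_pos.mpr ⟨⟨x, hx⟩, mem_Zs.mpr x1⟩
  have o := irrOne_mem_prinBlk (G := G) hp.out
  have hv : ∀ χ : IrrCharacter G, ∃ c : ℤ, ∃ d : ℕ, χ ∈ prinBlk p G → χ.1 x = c ∧ χ.1 1 = d ∧ 0 < d ∧
      (χ ≠ irrOne G → 2 * c ≤ d) := fun χ => by
    by_cases c : χ = irrOne G
    · exact ⟨1, 1, fun _ => by simp [c]⟩
    by_cases hχ : χ ∈ prinBlk p G
    swap
    · exact ⟨0, 0, fun c => absurd c hχ⟩
    obtain ⟨a, D, e1, e2, e3, e4, -⟩ := h.key t h0 hχ c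
    rw [← Finset.add_sum_erase _ _ (Finset.mem_univ 1), Finset.sum_congr rfl fun (z : Zp p P) hz =>
      cf χ (h1 z z.2 (mem_Zs.mp hz) x hx x1), Finset.sum_const, nsmul_eq_mul, coe_one, e1] at e3
    have e5 : χ.1 x = (((#|Zp p P| * a - (a + D : ℕ)) / (Zs p P).card : ℚ) : ℂ) := by
      have : ((Zs p P).card : ℂ) ≠ 0 := by exact_mod_cast hN.ne'
      push_cast at e3 ⊢
      rw [← e3]; field_simp; ring
    obtain ⟨c, hc⟩ := exists_int_of_isIntegral_ratCast (e5 ▸ IsCharacter.isIntegral (IsIrrCharacter.isCharacter χ.2) x)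
    refine ⟨c, a + D, fun _ => ⟨by rw [e5, hc]; simp, e1, by omega, fun _ => ?_⟩⟩
    have e6 : ((a + D : ℕ) : ℝ) + (Zs p P).card * c = #|Zp p P| * a := by
      rw [e5, hc] at e3; exact_mod_cast e3
    have e7 : (#|Zp p P| : ℝ) * a ^ 2 ≤ ((a + D : ℕ) : ℝ) ^ 2 := by exact_mod_cast e4
    rw [hn] at e6 e7
    have e8 : 2 * (((Zs p P).card + 1) * a : ℝ) ≤ ((Zs p P).card + 2) * (a + D : ℕ) :=
      le_of_sq_le_sq (by nlinarith [sq_nonneg (((Zs p P).card : ℝ) * (a + D : ℕ))]) (by positivity)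
    have : (2 * c : ℝ) ≤ (a + D : ℕ) := le_of_mul_le_mul_left (by linarith) hN
    exact_mod_cast this
  choose c d hv using hv
  obtain ⟨π, hπ⟩ := h.exists_pi hs hx x1 hx x1
  have k1 : ∀ g w, w ∈ Zp p P → (∀ u, IsPPart p g u → IsConj u w) →
      ∑ χ ∈ prinBlk p G, χ.1 g * conj (χ.1 x) = ((if w = 1 then 0 else #|P| : ℝ) : ℂ) := fun g w hw hu => by
    split_ifs with c
    · obtain ⟨u, hu'⟩ := exists_isPPart hp.out g
      exact sum_prinBlk_mul_conj_eq_zero hp.out hu' (pp_self ⟨1, by rw [pow_one, hx.2]⟩) fun e =>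
        x1 (isConj_one_left.mp (e.symm.trans (c ▸ hu u hu')))
    · rw [Finset.sum_congr rfl fun χ hχ => by rw [h.val hχ hu c], h.orth hw.1.1 hx.1.1, if_pos (h1 w hw c x hx x1),
        h.cR_Z hw c]
  have k2 : ∀ y, IsConj y x → ∑ g, ∑ χ ∈ prinBlk p G, χ.1 (x * (g * y * g⁻¹)) * conj (χ.1 x) =
      ((Fintype.card G * ∑ χ ∈ prinBlk p G, (c χ : ℝ) ^ 3 / d χ : ℝ) : ℂ) := fun y hy => by
    rw [Finset.sum_comm]
    push_cast
    rw [Finset.mul_sum]
    refine Finset.sum_congr rfl fun χ hχ => ?_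
    rw [← Finset.sum_mul, avg, cf χ hy, (hv χ hχ).1, (hv χ hχ).2.1, map_intCast]; ring
  have k3 := k2 x (IsConj.refl x)
  have k4 := k2 x⁻¹ (h1 _ (inv_mem hx) (inv_ne_one.mpr x1) x hx x1)
  rw [Finset.sum_congr rfl fun g _ => k1 _ _ (mul_mem hx (π g).2) (hπ g).2.1, ← Complex.ofReal_sum,
    Complex.ofReal_inj] at k3
  rw [Finset.sum_congr rfl fun g _ => k1 _ _ (mul_mem hx (inv_mem (π g).2)) (by simpa [mul_assoc] using (hπ g).2.2),
    ← Complex.ofReal_sum, Complex.ofReal_inj] at k4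
  have k5 : (#|P| : ℝ) ≤ 2 * ∑ χ ∈ prinBlk p G, (c χ : ℝ) ^ 3 / d χ := by
    refine le_of_mul_le_mul_left ?_ (by exact_mod_cast Fintype.card_pos : (0 : ℝ) < Fintype.card G)
    rw [mul_left_comm, two_mul, ← k3, ← nsmul_eq_mul, ← Finset.card_univ, ← Finset.sum_const]
    nth_rw 2 [k3]
    rw [← k4, ← Finset.sum_add_distrib]
    refine Finset.sum_le_sum fun g _ => ?_
    split_ifs with c1 c2
    · refine absurd ((Nat.prime_dvd_prime_iff_eq hp.out Nat.prime_two).mp ?_) hp2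
      rw [← Zp_order hx x1, orderOf_dvd_iff_pow_eq_one, pow_two]
      nth_rw 2 [mul_inv_eq_one.mp c2]
      exact c1
    all_goals simp
  have k6 : ∑ χ ∈ prinBlk p G, (c χ : ℝ) ^ 2 = #|P| := by
    rw [← h.cR_Z hx x1]
    exact Finset.sum_congr rfl fun χ hχ => by rw [(hv χ hχ).1]; simp
  obtain ⟨ψ, hψ, c1⟩ : ∃ ψ ∈ prinBlk p G, c ψ < 0 := by
    by_contra hc
    push Not at hc
    have e := sum_prinBlk_degree_mul_eq_zero (G := G) hp.out (Zp_order hx x1).symm.dvd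
    rw [Finset.sum_congr rfl fun χ hχ => by rw [(hv χ hχ).1, (hv χ hχ).2.1]] at e
    have e' : ∑ χ ∈ prinBlk p G, (d χ : ℤ) * c χ = 0 := by exact_mod_cast e
    have := (Finset.sum_eq_zero_iff_of_nonneg fun χ hχ => mul_nonneg (by positivity) (hc χ hχ)).mp e' _ o
    have e2 := hv _ o
    simp only [irrOne_apply] at e2
    have e3 : ((d (irrOne G) : ℂ)) * c (irrOne G) = 0 := by exact_mod_cast this
    rw [← e2.1, ← e2.2.1] at e3
    simp at e3
  have e1 : c (irrOne G) = 1 ∧ d (irrOne G) = 1 := by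
    have e2 := hv _ o
    simp only [irrOne_apply] at e2
    exact ⟨by exact_mod_cast e2.1.symm, by exact_mod_cast e2.2.1.symm⟩
  have m : ψ ∈ (prinBlk p G).erase (irrOne G) := Finset.mem_erase.mpr ⟨by rintro rfl; omega, hψ⟩
  rw [← Finset.add_sum_erase _ _ o, ← Finset.add_sum_erase _ _ m, e1.1] at k5 k6
  rw [e1.2] at k5
  have k7 : ∑ χ ∈ ((prinBlk p G).erase (irrOne G)).erase ψ, (c χ : ℝ) ^ 3 / d χ ≤
      ∑ χ ∈ ((prinBlk p G).erase (irrOne G)).erase ψ, (c χ : ℝ) ^ 2 / 2 := Finset.sum_le_sum fun χ hχ => by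
    have m := Finset.mem_erase.mp (Finset.mem_of_mem_erase hχ)
    have := hv χ m.2
    have c2 : (2 * c χ : ℝ) ≤ d χ := by exact_mod_cast this.2.2.2 m.1
    rw [div_le_div_iff₀ (by exact_mod_cast this.2.2.1) two_pos]
    nlinarith [mul_le_mul_of_nonneg_left c2 (sq_nonneg (c χ : ℝ))]
  rw [← Finset.sum_div] at k7
  have c2 : (c ψ : ℝ) ≤ -1 := by exact_mod_cast (by omega : c ψ ≤ -1)
  have k8 : (c ψ : ℝ) ^ 3 / d ψ < 0 := div_neg_of_neg_of_pos (by nlinarith [sq_nonneg (c ψ : ℝ)])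
    (by exact_mod_cast (hv ψ hψ).2.2.1)
  push_cast at k5 k6
  nlinarith

end Hy

theorem Hy.two {G : Type*} [Group G] [Finite G] [IsSimpleGroup G] {P : Subgroup G} (h : Hy p P) (hs : Sol p G)
    (h0 : pPrimeCore p G = ⊥) (hn : ¬ P.Normal) : p = 2 := by
  by_contra hp2
  have := Fintype.ofFinite G
  have t := exists_tr P
  have := Fintype.ofFinite (𝐍(P) ⧸ (P ⊔ 𝐂(P)).subgroupOf 𝐍(P))
  have hZ := Zp_ne_bot h.syl.pgroup (fun e => hn (by rw [e]; infer_instance))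
  by_cases c : 2 ≤ ((Zs p P).image fun z : Zp p P => ConjClasses.mk (z : G)).card
  · exact (lt_or_ge _ _).elim (h.caseA t hZ hs c) (h.caseB t hZ hs (h.two_le t h0 hn))
  · refine h.caseC hZ hs hp2 t fun x hx x1 y hy y1 => ConjClasses.mk_eq_mk_iff_isConj.mp ?_
    exact Finset.card_le_one.mp (Nat.le_of_lt_succ (not_le.mp c)) _ (Finset.mem_image.mpr ⟨⟨x, hx⟩, mem_Zs.mpr x1, rfl⟩) _
      (Finset.mem_image.mpr ⟨⟨y, hy⟩, mem_Zs.mpr y1, rfl⟩)

end Cfsg.Agent.GZ
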